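import Mathlib.CategoryTheory.Adjunction.Basic

/-!
Formal calculus of the base change map of a right adjoint (S3653, S3654), in arbitrary categories.

`F : A ⥤ B` (`Rf_*`), `F' : A' ⥤ B'` (`Rf'_*`), `G : B' ⥤ B` (`Rg_*`), `G' : A' ⥤ A` (`Rg'_*`), right adjoints `a` of `F`
and `a'` of `F'`, left adjoints `P` of `G` and `P'` of `G'`, and `e : G' ⋙ F ⟶ F' ⋙ G`.
-/

set_option autoImplicit false

open CategoryTheory

namespace Groth.Agent.Dual.H357.FormalBC

universe v₁ v₂ v₃ v₄ u₁ u₂ u₃ u₄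

section Two

variable {A : Type u₁} {B : Type u₂} [Category.{v₁} A] [Category.{v₂} B] {L : A ⥤ B} {R : B ⥤ A}

theorem unit_map_symm (adj : L ⊣ R) {X : A} {Y : B} (t : X ⟶ R.obj Y) :
    adj.unit.app X ≫ R.map ((adj.homEquiv X Y).symm t) = t :=
  (adj.homEquiv_unit (f := (adj.homEquiv X Y).symm t)).symm.trans ((adj.homEquiv X Y).apply_symm_apply t)

theorem map_counit_apply (adj : L ⊣ R) {X : A} {Y : B} (t : L.obj X ⟶ Y) :
    L.map ((adj.homEquiv X Y) t) ≫ adj.counit.app Y = t :=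
  (adj.homEquiv_counit (g := (adj.homEquiv X Y) t)).symm.trans ((adj.homEquiv X Y).symm_apply_apply t)

theorem hom_ext_left (adj : L ⊣ R) {X : A} {Y : B} {s t : L.obj X ⟶ Y}
    (h : adj.unit.app X ≫ R.map s = adj.unit.app X ≫ R.map t) : s = t :=
  (adj.homEquiv X Y).injective ((adj.homEquiv_unit (f := s)).trans (h.trans (adj.homEquiv_unit (f := t)).symm))

theorem hom_ext_right (adj : L ⊣ R) {X : A} {Y : B} {s t : X ⟶ R.obj Y}
    (h : L.map s ≫ adj.counit.app Y = L.map t ≫ adj.counit.app Y) : s = t :=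
  (adj.homEquiv X Y).symm.injective
    ((adj.homEquiv_counit (g := s)).trans (h.trans (adj.homEquiv_counit (g := t)).symm))

end Two

variable {A : Type u₁} {B : Type u₂} {A' : Type u₃} {B' : Type u₄}
  [Category.{v₁} A] [Category.{v₂} B] [Category.{v₃} A'] [Category.{v₄} B']
  {F : A ⥤ B} {F' : A' ⥤ B'} {G : B' ⥤ B} {G' : A' ⥤ A}
  {a : B ⥤ A} {a' : B' ⥤ A'} {P : B ⥤ B'} {P' : A ⥤ A'}

/-- The map `G' a' M ⟶ a G M` adjoint to `F G' a' M ⟶ G F' a' M ⟶ G M`. -/
def xi (adj : F ⊣ a) (adj' : F' ⊣ a') (e : G' ⋙ F ⟶ F' ⋙ G) (M : B') :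
    G'.obj (a'.obj M) ⟶ a.obj (G.obj M) :=
  (adj.homEquiv _ _) (e.app (a'.obj M) ≫ G.map (adj'.counit.app M))

/-- The base change map `P' a K ⟶ a' P K`, given an inverse `x` of `xi` at `P K`. -/
def bcMap (adjg : P ⊣ G) (adjg' : P' ⊣ G') (K : B)
    (x : a.obj (G.obj (P.obj K)) ⟶ G'.obj (a'.obj (P.obj K))) :
    P'.obj (a.obj K) ⟶ a'.obj (P.obj K) :=
  P'.map (a.map (adjg.unit.app K)) ≫ P'.map x ≫ adjg'.counit.app (a'.obj (P.obj K))

/-- The base change map `P F K ⟶ F' P' K`. -/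
def bcPush (e : G' ⋙ F ⟶ F' ⋙ G) (adjg : P ⊣ G) (adjg' : P' ⊣ G') (K : A) :
    P.obj (F.obj K) ⟶ F'.obj (P'.obj K) :=
  (adjg.homEquiv _ _).symm (F.map (adjg'.unit.app K) ≫ e.app (P'.obj K))

theorem unit_map_bcMap (adjg : P ⊣ G) (adjg' : P' ⊣ G') (K : B)
    (x : a.obj (G.obj (P.obj K)) ⟶ G'.obj (a'.obj (P.obj K))) :
    adjg'.unit.app (a.obj K) ≫ G'.map (bcMap adjg adjg' K x) = a.map (adjg.unit.app K) ≫ x := by
  have h : bcMap adjg adjg' K x = (adjg'.homEquiv _ _).symm (a.map (adjg.unit.app K) ≫ x) := by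
    refine Eq.trans ?_ (adjg'.homEquiv_counit (g := a.map (adjg.unit.app K) ≫ x)).symm
    exact (Category.assoc _ _ _).symm.trans (congrArg (· ≫ adjg'.counit.app (a'.obj (P.obj K)))
      (P'.map_comp (a.map (adjg.unit.app K)) x).symm)
  rw [h]
  exact unit_map_symm adjg' (a.map (adjg.unit.app K) ≫ x)

theorem unit_map_bcPush (e : G' ⋙ F ⟶ F' ⋙ G) (adjg : P ⊣ G) (adjg' : P' ⊣ G') (K : A) :
    adjg.unit.app (F.obj K) ≫ G.map (bcPush e adjg adjg' K) =
      F.map (adjg'.unit.app K) ≫ e.app (P'.obj K) :=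
  unit_map_symm adjg _

theorem map_xi_counit (adj : F ⊣ a) (adj' : F' ⊣ a') (e : G' ⋙ F ⟶ F' ⋙ G) (M : B') :
    F.map (xi adj adj' e M) ≫ adj.counit.app (G.obj M) =
      e.app (a'.obj M) ≫ G.map (adj'.counit.app M) :=
  map_counit_apply adj _

/-- `xi` is natural. -/
theorem xi_naturality (adj : F ⊣ a) (adj' : F' ⊣ a') (e : G' ⋙ F ⟶ F' ⋙ G) {M N : B'} (s : M ⟶ N) :
    xi adj adj' e M ≫ a.map (G.map s) = G'.map (a'.map s) ≫ xi adj adj' e N := by
  apply hom_ext_right adj
  have h1 : F.map (a.map (G.map s)) ≫ adj.counit.app (G.obj N) = adj.counit.app (G.obj M) ≫ G.map s :=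
    adj.counit.naturality (G.map s)
  have h2 : F.map (G'.map (a'.map s)) ≫ e.app (a'.obj N) = e.app (a'.obj M) ≫ G.map (F'.map (a'.map s)) :=
    e.naturality (a'.map s)
  have h3 : F'.map (a'.map s) ≫ adj'.counit.app N = adj'.counit.app M ≫ s :=
    adj'.counit.naturality s
  calc F.map (xi adj adj' e M ≫ a.map (G.map s)) ≫ adj.counit.app (G.obj N)
      = F.map (xi adj adj' e M) ≫ (F.map (a.map (G.map s)) ≫ adj.counit.app (G.obj N)) := by
        rw [Functor.map_comp, Category.assoc]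
    _ = (F.map (xi adj adj' e M) ≫ adj.counit.app (G.obj M)) ≫ G.map s := by
        rw [h1, Category.assoc]
    _ = e.app (a'.obj M) ≫ G.map (F'.map (a'.map s) ≫ adj'.counit.app N) := by
        rw [map_xi_counit, h3, Functor.map_comp, Category.assoc]
    _ = F.map (G'.map (a'.map s)) ≫ (e.app (a'.obj N) ≫ G.map (adj'.counit.app N)) := by
        rw [Functor.map_comp, ← Category.assoc, ← h2, Category.assoc]
    _ = F.map (G'.map (a'.map s) ≫ xi adj adj' e N) ≫ adj.counit.app (G.obj N) := by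
        rw [← map_xi_counit adj adj' e N, Functor.map_comp, Category.assoc]

theorem trace_compat (adj : F ⊣ a) (adj' : F' ⊣ a') (e : G' ⋙ F ⟶ F' ⋙ G)
    (adjg : P ⊣ G) (adjg' : P' ⊣ G') (K : B)
    (x : a.obj (G.obj (P.obj K)) ⟶ G'.obj (a'.obj (P.obj K)))
    (hx : x ≫ xi adj adj' e (P.obj K) = 𝟙 _) :
    bcPush e adjg adjg' (a.obj K) ≫ F'.map (bcMap adjg adjg' K x) ≫ adj'.counit.app (P.obj K) =
      P.map (adj.counit.app K) := by
  apply hom_ext_left adjg
  have h1 : e.app (P'.obj (a.obj K)) ≫ G.map (F'.map (bcMap adjg adjg' K x)) =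
      F.map (G'.map (bcMap adjg adjg' K x)) ≫ e.app (a'.obj (P.obj K)) :=
    (e.naturality (bcMap adjg adjg' K x)).symm
  have h2 : F.map (a.map (adjg.unit.app K)) ≫ adj.counit.app (G.obj (P.obj K)) =
    adj.counit.app K ≫ adjg.unit.app K := adj.counit.naturality (adjg.unit.app K)
  have h3 : adj.counit.app K ≫ adjg.unit.app K =
    adjg.unit.app (F.obj (a.obj K)) ≫ G.map (P.map (adj.counit.app K)) :=
      adjg.unit.naturality (adj.counit.app K)
  have h4 : F.map (a.map (adjg.unit.app K) ≫ x) ≫ F.map (xi adj adj' e (P.obj K)) =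
      F.map (a.map (adjg.unit.app K)) := by
    rw [← Functor.map_comp, Category.assoc, hx]
    exact congrArg F.map (Category.comp_id _)
  calc adjg.unit.app (F.obj (a.obj K)) ≫ G.map (bcPush e adjg adjg' (a.obj K) ≫
          F'.map (bcMap adjg adjg' K x) ≫ adj'.counit.app (P.obj K))
      = (adjg.unit.app (F.obj (a.obj K)) ≫ G.map (bcPush e adjg adjg' (a.obj K))) ≫
          G.map (F'.map (bcMap adjg adjg' K x)) ≫ G.map (adj'.counit.app (P.obj K)) := by
        rw [Functor.map_comp, Functor.map_comp, Category.assoc]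
    _ = F.map (adjg'.unit.app (a.obj K)) ≫ (e.app (P'.obj (a.obj K)) ≫
          G.map (F'.map (bcMap adjg adjg' K x))) ≫ G.map (adj'.counit.app (P.obj K)) := by
        rw [unit_map_bcPush, Category.assoc, Category.assoc]
    _ = F.map (adjg'.unit.app (a.obj K) ≫ G'.map (bcMap adjg adjg' K x)) ≫
          (e.app (a'.obj (P.obj K)) ≫ G.map (adj'.counit.app (P.obj K))) := by
        rw [h1, Category.assoc, Functor.map_comp, Category.assoc]
    _ = (F.map (a.map (adjg.unit.app K) ≫ x) ≫ F.map (xi adj adj' e (P.obj K))) ≫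
          adj.counit.app (G.obj (P.obj K)) := by
        rw [unit_map_bcMap, ← map_xi_counit adj adj' e (P.obj K), Category.assoc]
    _ = adjg.unit.app (F.obj (a.obj K)) ≫ G.map (P.map (adj.counit.app K)) := by
        rw [h4, h2, h3]

theorem unit_compat (adj : F ⊣ a) (adj' : F' ⊣ a') (e : G' ⋙ F ⟶ F' ⋙ G)
    (adjg : P ⊣ G) (adjg' : P' ⊣ G') (M : A)
    (x : a.obj (G.obj (P.obj (F.obj M))) ⟶ G'.obj (a'.obj (P.obj (F.obj M))))
    (hx : x ≫ xi adj adj' e (P.obj (F.obj M)) = 𝟙 _)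
    (hmono : Mono (xi adj adj' e (F'.obj (P'.obj M)))) :
    adj'.unit.app (P'.obj M) =
      P'.map (adj.unit.app M) ≫ bcMap adjg adjg' (F.obj M) x ≫ a'.map (bcPush e adjg adjg' M) := by
  apply hom_ext_left adjg'
  rw [← cancel_mono (xi adj adj' e (F'.obj (P'.obj M)))]
  apply hom_ext_right adj
  -- left side: `F M ⟶ F G' P' M ⟶ G F' P' M`
  have l1 : F.map (G'.map (adj'.unit.app (P'.obj M))) ≫ e.app (a'.obj (F'.obj (P'.obj M))) =
      e.app (P'.obj M) ≫ G.map (F'.map (adj'.unit.app (P'.obj M))) :=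
    e.naturality (adj'.unit.app (P'.obj M))
  have l2 : F'.map (adj'.unit.app (P'.obj M)) ≫ adj'.counit.app (F'.obj (P'.obj M)) = 𝟙 _ :=
    adj'.left_triangle_components (P'.obj M)
  have l : F.map ((adjg'.unit.app M ≫ G'.map (adj'.unit.app (P'.obj M))) ≫
      xi adj adj' e (F'.obj (P'.obj M))) ≫ adj.counit.app (G.obj (F'.obj (P'.obj M))) =
      F.map (adjg'.unit.app M) ≫ e.app (P'.obj M) := by
    rw [Functor.map_comp, Category.assoc, map_xi_counit, Functor.map_comp, Category.assoc,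
      ← Category.assoc (F.map (G'.map (adj'.unit.app (P'.obj M)))), l1, Category.assoc,
      ← Functor.map_comp, l2]
    exact congrArg (F.map (adjg'.unit.app M) ≫ ·)
      ((congrArg (e.app (P'.obj M) ≫ ·) (G.map_id _)).trans (Category.comp_id _))
  -- right side
  have r1 : adjg'.unit.app M ≫ G'.map (P'.map (adj.unit.app M)) =
      adj.unit.app M ≫ adjg'.unit.app (a.obj (F.obj M)) :=
    (adjg'.unit.naturality (adj.unit.app M)).symm
  have r2 := unit_map_bcMap (a := a) (a' := a') adjg adjg' (F.obj M) x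
  have r3 := xi_naturality adj adj' e (bcPush e adjg adjg' M)
  have r4 : F.map (a.map (adjg.unit.app (F.obj M))) ≫ F.map (a.map (G.map (bcPush e adjg adjg' M))) ≫
      adj.counit.app (G.obj (F'.obj (P'.obj M))) =
      adj.counit.app (F.obj M) ≫ adjg.unit.app (F.obj M) ≫ G.map (bcPush e adjg adjg' M) := by
    have := adj.counit.naturality (adjg.unit.app (F.obj M) ≫ G.map (bcPush e adjg adjg' M))
    simp only [Functor.comp_map, Functor.id_map, Functor.map_comp, Category.assoc] at this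
    exact this
  have r5 : F.map (adj.unit.app M) ≫ adj.counit.app (F.obj M) = 𝟙 _ := adj.left_triangle_components M
  have r : (adjg'.unit.app M ≫ G'.map (P'.map (adj.unit.app M) ≫ bcMap adjg adjg' (F.obj M) x ≫
      a'.map (bcPush e adjg adjg' M))) ≫ xi adj adj' e (F'.obj (P'.obj M)) =
      adj.unit.app M ≫ a.map (adjg.unit.app (F.obj M)) ≫ a.map (G.map (bcPush e adjg adjg' M)) := by
    calc _ = (adjg'.unit.app M ≫ G'.map (P'.map (adj.unit.app M))) ≫
          G'.map (bcMap adjg adjg' (F.obj M) x) ≫ (G'.map (a'.map (bcPush e adjg adjg' M)) ≫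
            xi adj adj' e (F'.obj (P'.obj M))) := by
          simp only [Functor.map_comp, Category.assoc]
      _ = adj.unit.app M ≫ (adjg'.unit.app (a.obj (F.obj M)) ≫
          G'.map (bcMap adjg adjg' (F.obj M) x)) ≫ (xi adj adj' e (P.obj (F.obj M)) ≫
            a.map (G.map (bcPush e adjg adjg' M))) := by
          rw [r1, r3]; simp only [Category.assoc]
      _ = adj.unit.app M ≫ a.map (adjg.unit.app (F.obj M)) ≫ (x ≫ xi adj adj' e (P.obj (F.obj M))) ≫
            a.map (G.map (bcPush e adjg adjg' M)) := by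
          rw [r2]; simp only [Category.assoc]
      _ = _ := by
          rw [hx]
          exact congrArg (fun t => adj.unit.app M ≫ a.map (adjg.unit.app (F.obj M)) ≫ t) (Category.id_comp _)
  refine l.trans ?_
  rw [r]
  refine Eq.trans ?_ (Eq.trans (congrArg (F.map (adj.unit.app M) ≫ ·) r4.symm) ?_)
  · rw [← Category.assoc, r5, unit_map_bcPush]
    exact (Category.id_comp _).symm
  · simp only [Functor.map_comp, Category.assoc]

end Groth.Agent.Dual.H357.FormalBC
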